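import Cfsg.Agent.Lib.KnownSimple.J3.SimpleG

/-!
# The triple cover of `J₃`: the centre, the order, simplicity, the embedding in the unitary group
-/

set_option autoImplicit false

namespace Cfsg.Agent.Lib.KnownSimple.J3

open Cfsg Cfsg.Spor Cfsg.Agent.Lib.Compute Cfsg.Agent.Lib.KnownSimple.PE Cfsg.Agent.Lib.KnownSimple.Leech
open Cfsg.Agent.Lib.KnownSimple Cfsg.Agent.Lib.KnownSimple.AutRigid
open Cfsg.Agent.Lib.KnownSimple.J3Data
open scoped Matrix MatrixGroups commutatorElement

section field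

variable {F : Type*} [Field F]

/-- The element `1` of the field with nine elements. -/
def Z₀ : F9 := (1, 0)

theorem omegaPow_succ {ω : F} (h3 : ω ^ 3 = 1) (n : ZMod 3) : omegaPow F ω (n + 1) = ω * omegaPow F ω n := by
  unfold omegaPow
  have e : ∀ n : ZMod 3, (n + 1).val = (n.val + 1) % 3 := by decide
  rw [e, ← pow_eq_pow_mod _ h3, pow_succ']

theorem A_D_comm {ω : F} (h3 : ω ^ 3 = 1) : j3A F ω Z₀ * j3D F ω Z₀ = ω • (j3D F ω Z₀ * j3A F ω Z₀) := by
  ext w z
  rw [Matrix.smul_apply]
  unfold j3A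
  rw [Matrix.diagonal_mul, Matrix.mul_diagonal]
  show omegaPow F ω (Z₀.1 * w.1 + Z₀.2 * w.2) * (if w = z + Z₀ then j3Lam F ω Z₀ z else 0) =
    ω • ((if w = z + Z₀ then j3Lam F ω Z₀ z else 0) * omegaPow F ω (Z₀.1 * z.1 + Z₀.2 * z.2))
  by_cases h : w = z + Z₀
  · subst h
    rw [if_pos rfl]
    have e : Z₀.1 * (z + Z₀).1 + Z₀.2 * (z + Z₀).2 = (Z₀.1 * z.1 + Z₀.2 * z.2) + 1 := by
      revert z
      decide
    rw [e, omegaPow_succ h3, smul_eq_mul]
    ring
  · rw [if_neg h]
    simp

section rep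

variable [Fintype F] {ω : F}

/-- The commutator giving the scalar. -/
theorem exists_scalar (hg : Good ω) :
    ∃ a d : ↥(threeJ3 F ω), ((⁅a, d⁆ : ↥(threeJ3 F ω)) : GL F9 F).1 = ω • (1 : Matrix F9 F9 F) := by
  have h3 : ω ^ 3 = 1 := by
    linear_combination (ω - 1) * hg.hω
  obtain ⟨a, ha⟩ := exists_unit J hg (k := zi Z₀) (by decide)
  obtain ⟨d, hd⟩ := exists_unit J hg (k := 18 + zi Z₀) (by decide)
  rw [← matK_A J Z₀] at ha
  rw [← matK_D J Z₀] at hd
  have ham : a ∈ threeJ3 F ω := Subgroup.subset_closure (by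
    show a.1 ∈ j3Gens F ω
    rw [ha]
    exact Or.inl (Or.inl (Or.inl (Or.inl ⟨Z₀, rfl⟩))))
  have hdm : d ∈ threeJ3 F ω := Subgroup.subset_closure (by
    show d.1 ∈ j3Gens F ω
    rw [hd]
    exact Or.inl (Or.inl (Or.inr ⟨Z₀, rfl⟩)))
  refine ⟨⟨a, ham⟩, ⟨d, hdm⟩, ?_⟩
  show (a * d * a⁻¹ * d⁻¹ : GL F9 F).1 = _
  have h1 : (a * d * a⁻¹ * d⁻¹ : GL F9 F) * (d * a) = a * d := by group
  have h2 : (a * d * a⁻¹ * d⁻¹ : GL F9 F).1 * (d * a : GL F9 F).1 = (a * d : GL F9 F).1 := congrArg Units.val h1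
  have h4 : (a * d : GL F9 F).1 = j3A F ω Z₀ * j3D F ω Z₀ := by
    rw [Units.val_mul, ha, hd]
  have h5 : (d * a : GL F9 F).1 = j3D F ω Z₀ * j3A F ω Z₀ := by
    rw [Units.val_mul, ha, hd]
  have h6 : (a * d * a⁻¹ * d⁻¹ : GL F9 F).1 * (d * a : GL F9 F).1 = (ω • (1 : Matrix F9 F9 F)) * (d * a : GL F9 F).1 := by
    rw [h2, h4, h5, A_D_comm h3, Matrix.smul_mul, one_mul]
  exact (d * a : GL F9 F).isUnit.mul_left_inj.1 h6

/-- The centre of the triple cover is generated by the scalar. -/
theorem center_eq_zpowers (hF : Fintype.card F = 4) (hg : Good ω) (s : ↥(threeJ3 F ω))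
    (hs : (s : GL F9 F).1 = ω • (1 : Matrix F9 F9 F)) : Subgroup.center ↥(threeJ3 F ω) = Subgroup.zpowers s := by
  have h3 : ω ^ 3 = 1 := by
    linear_combination (ω - 1) * hg.hω
  apply le_antisymm
  · intro g hgc
    rw [center_eq_ker J hg bOK center_triv] at hgc
    have hg1 : rep J hg g = 1 := hgc
    obtain ⟨c, hc, h⟩ := scalar_of_fix J hg bOK (Subgroup.inclusion (three_le_GS J hg) g) (by
      intro b hlt _
      show rep J hg g _ = _
      rw [hg1]
      rfl)
    have h' : g.1.1 = c • (1 : Matrix F9 F9 F) := h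
    have hc3 : c ^ 3 = 1 := by
      have := FiniteField.pow_card_sub_one_eq_one c hc
      rwa [hF] at this
    have hprod : (c - 1) * (c - ω) * (c - ω ^ 2) = 0 := by
      linear_combination hc3 + (-c ^ 2 + ω * c - (ω - 1)) * hg.hω
    have hval : ∀ j : ℕ, (s ^ j : ↥(threeJ3 F ω)).1.1 = ω ^ j • (1 : Matrix F9 F9 F) := by
      intro j
      induction j with
      | zero => simp
      | succ j ih =>
        rw [pow_succ, Subgroup.coe_mul, Units.val_mul, ih, hs, smul_mul_smul_comm, one_mul, pow_succ]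
    have key : ∀ j : ℕ, c = ω ^ j → g ∈ Subgroup.zpowers s := by
      intro j hj
      have : g = s ^ j := by
        apply Subtype.ext
        apply Units.ext
        rw [h', hval, hj]
      rw [this]
      exact Subgroup.pow_mem _ (Subgroup.mem_zpowers s) j
    rcases mul_eq_zero.1 hprod with h5 | h5
    · rcases mul_eq_zero.1 h5 with h6 | h6
      · exact key 0 (by rw [pow_zero]; exact sub_eq_zero.1 h6)
      · exact key 1 (by rw [pow_one]; exact sub_eq_zero.1 h6)
    · exact key 2 (sub_eq_zero.1 h5)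
  · rw [Subgroup.zpowers_le, Subgroup.mem_center_iff]
    intro k
    apply Subtype.ext
    apply Units.ext
    show k.1.1 * s.1.1 = s.1.1 * k.1.1
    rw [hs]
    simp

theorem orderOf_scalar (hg : Good ω) (s : ↥(threeJ3 F ω))
    (hs : (s : GL F9 F).1 = ω • (1 : Matrix F9 F9 F)) : orderOf s = 3 := by
  have h3 : ω ^ 3 = 1 := by
    linear_combination (ω - 1) * hg.hω
  haveI : Fact (Nat.Prime 3) := ⟨Nat.prime_three⟩
  refine orderOf_eq_prime ?_ ?_
  · apply Subtype.ext
    apply Units.ext
    show ((s : GL F9 F) ^ 3).1 = 1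
    rw [Units.val_pow_eq_pow_val, hs, smul_pow, one_pow, h3, one_smul]
  · intro h
    have h1 : (s : GL F9 F).1 = 1 := by
      rw [h]
      rfl
    rw [hs] at h1
    have h2 := congrFun (congrFun h1 0) 0
    simp at h2
    exact hg.ne_one h2

/-- The isomorphism. -/
noncomputable def equivJ (hg : Good ω) : J3 F ω ≃* G := equivJ3 J hg bOK center_triv

/-- The simple group. -/
theorem simple_J3 (hg : Good ω) : IsSimpleGroup (J3 F ω) :=
  haveI := simple_G
  (equivJ hg).isSimpleGroup

theorem card_J3 (hg : Good ω) : Nat.card (J3 F ω) = 50232960 := by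
  rw [Nat.card_congr (equivJ hg).toEquiv]
  exact card_G

theorem card_center_three (hF : Fintype.card F = 4) (hg : Good ω) : Nat.card (Subgroup.center ↥(threeJ3 F ω)) = 3 := by
  obtain ⟨a, d, h⟩ := exists_scalar hg
  rw [center_eq_zpowers hF hg _ h, Nat.card_zpowers, orderOf_scalar hg _ h]

theorem card_three (hF : Fintype.card F = 4) (hg : Good ω) : Nat.card ↥(threeJ3 F ω) = 150698880 := by
  rw [Subgroup.card_eq_card_quotient_mul_card_subgroup (Subgroup.center ↥(threeJ3 F ω)), card_center_three hF hg]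
  have := card_J3 hg
  unfold J3 at this
  rw [this]

/-- The noncommutativity of the simple group. -/
theorem G_noncomm : ∃ a b : G, a * b ≠ b * a := by
  refine ⟨u, w, fun h => ?_⟩
  have h1 := conj_uw
  rw [h] at h1
  have h2 : w ^ 3 = 1 := by
    have h5 : w * u * u⁻¹ = w := by group
    rw [h5] at h1
    have h6 : w ^ 4 = w ^ 3 * w := pow_succ w 3
    rw [h6] at h1
    exact (mul_eq_right.1 h1.symm)
  have h7 := orderOf_dvd_of_pow_eq_one h2
  rw [orderOf_w] at h7
  omega

theorem J3_noncomm (hg : Good ω) : ∃ a b : J3 F ω, a * b ≠ b * a := by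
  obtain ⟨a, b, h⟩ := G_noncomm
  refine ⟨(equivJ hg).symm a, (equivJ hg).symm b, fun e => h ?_⟩
  have := congrArg (equivJ hg) e
  simpa using this

/-- Homomorphisms from the triple cover to commutative groups are trivial. -/
theorem hom_trivial {A : Type*} [CommGroup A] (hF : Fintype.card F = 4) (hg : Good ω) (φ : ↥(threeJ3 F ω) →* A) : φ = 1 := by
  obtain ⟨a, d, h⟩ := exists_scalar hg
  have hZ : Subgroup.center ↥(threeJ3 F ω) ≤ commutator ↥(threeJ3 F ω) := by
    rw [center_eq_zpowers hF hg _ h, Subgroup.zpowers_le, commutator_def]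
    exact Subgroup.commutator_mem_commutator (Subgroup.mem_top _) (Subgroup.mem_top _)
  have hker : commutator ↥(threeJ3 F ω) ≤ φ.ker := by
    rw [commutator_def, Subgroup.commutator_le]
    intro x _ y _
    rw [MonoidHom.mem_ker, map_commutatorElement, commutatorElement_eq_one_iff_mul_comm]
    exact mul_comm _ _
  haveI := simple_J3 hg
  let f := QuotientGroup.mk' (Subgroup.center ↥(threeJ3 F ω))
  haveI hN : ((commutator ↥(threeJ3 F ω)).map f).Normal := Subgroup.Normal.map inferInstance f (QuotientGroup.mk'_surjective _)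
  rcases (IsSimpleGroup.eq_bot_or_eq_top_of_normal _ hN) with hb | ht
  · exfalso
    obtain ⟨x, y, hxy⟩ := J3_noncomm hg
    obtain ⟨x', rfl⟩ := QuotientGroup.mk'_surjective _ x
    obtain ⟨y', rfl⟩ := QuotientGroup.mk'_surjective _ y
    apply hxy
    have h1 : f ⁅x', y'⁆ = 1 := by
      have h2 : f ⁅x', y'⁆ ∈ (commutator ↥(threeJ3 F ω)).map f :=
        ⟨_, by
          rw [commutator_def]
          exact Subgroup.commutator_mem_commutator (Subgroup.mem_top _) (Subgroup.mem_top _), rfl⟩
      rw [hb, Subgroup.mem_bot] at h2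
      exact h2
    rw [map_commutatorElement, commutatorElement_eq_one_iff_mul_comm] at h1
    exact h1
  · ext t
    have h1 : f t ∈ (commutator ↥(threeJ3 F ω)).map f := by
      rw [ht]
      exact Subgroup.mem_top _
    obtain ⟨c, hc, e⟩ := h1
    have h2 : c⁻¹ * t ∈ Subgroup.center ↥(threeJ3 F ω) := by
      have : f (c⁻¹ * t) = 1 := by
        rw [map_mul, map_inv, e, inv_mul_cancel]
      exact (QuotientGroup.eq_one_iff _).1 this
    have h3 : t = c * (c⁻¹ * t) := by group
    have h4 : t ∈ commutator ↥(threeJ3 F ω) := by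
      rw [h3]
      exact Subgroup.mul_mem _ hc (hZ h2)
    exact hker h4

end rep

end field

/-- A field with four elements and a primitive cube root of unity. -/
theorem exists_model4 : ∃ (F : Type) (_ : Field F) (_ : Fintype F) (ω : F), Fintype.card F = 4 ∧ ω ^ 2 + ω + 1 = 0 := by
  classical
  have : Fact (Nat.Prime 2) := ⟨Nat.prime_two⟩
  let F := GaloisField 2 2
  letI : Fintype F := Fintype.ofFinite F
  have hc : Fintype.card F = 4 := by
    have h := GaloisField.card 2 2 (by norm_num)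
    rw [Nat.card_eq_fintype_card] at h
    rw [h]
    norm_num
  obtain ⟨x, hx⟩ : ∃ x : F, x ∉ ({0, 1} : Finset F) := by
    by_contra h
    have h1 : (Finset.univ : Finset F) ⊆ {0, 1} := fun a _ => by_contra fun ha => h ⟨a, ha⟩
    have h2 := Finset.card_le_card h1
    rw [Finset.card_univ, hc] at h2
    have h3 : ({0, 1} : Finset F).card ≤ 2 := Finset.card_le_two
    omega
  have hx0 : x ≠ 0 := fun h => hx (by simp [h])
  have hx1 : x ≠ 1 := fun h => hx (by simp [h])
  have h3 : x ^ 3 = 1 := by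
    have h := FiniteField.pow_card_sub_one_eq_one x hx0
    rw [hc] at h
    exact h
  have h4 : x ^ 2 + x + 1 = 0 := by
    have h5 : (x - 1) * (x ^ 2 + x + 1) = 0 := by linear_combination h3
    exact (mul_eq_zero.1 h5).resolve_left (sub_ne_zero.2 hx1)
  exact ⟨F, inferInstance, inferInstance, x, hc, h4⟩

section unitary

variable {F : Type} [Field F] [Fintype F] {ω : F}

/-- An enumeration of the index set. -/
noncomputable def eI : F9 ≃ Fin 9 := Fintype.equivFinOfCardEq (by simp [ZMod.card])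

/-- The reindexing. -/
noncomputable def reI : Matrix F9 F9 F ≃ₐ[F] Matrix (Fin 9) (Fin 9) F := Matrix.reindexAlgEquiv F F eI

theorem det_three (hF : Fintype.card F = 4) (hg : Good ω) (g : ↥(threeJ3 F ω)) : (g : GL F9 F).1.det = 1 := by
  let δ : ↥(threeJ3 F ω) →* Fˣ := Matrix.GeneralLinearGroup.det.comp (threeJ3 F ω).subtype
  have h := hom_trivial hF hg δ
  have h1 : δ g = 1 := by
    rw [h]
    rfl
  have h2 : ((δ g : Fˣ) : F) = (g : GL F9 F).1.det := Matrix.GeneralLinearGroup.val_det_apply (g : GL F9 F)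
  rw [← h2, h1]
  rfl

/-- The map to the special linear group. -/
noncomputable def toSL (hF : Fintype.card F = 4) (hg : Good ω) : ↥(threeJ3 F ω) →* Matrix.SpecialLinearGroup (Fin 9) F where
  toFun g := ⟨reI (g : GL F9 F).1, by
    rw [reI, Matrix.det_reindexAlgEquiv]
    exact det_three hF hg g⟩
  map_one' := by
    apply Subtype.ext
    show reI (1 : Matrix F9 F9 F) = 1
    exact map_one _
  map_mul' := by
    intro a b
    apply Subtype.ext
    show reI (a.1.1 * b.1.1) = reI a.1.1 * reI b.1.1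
    exact map_mul _ _ _

theorem toSL_val (hF : Fintype.card F = 4) (hg : Good ω) (g : ↥(threeJ3 F ω)) :
    (toSL hF hg g : Matrix.SpecialLinearGroup (Fin 9) F).1 = reI (g : GL F9 F).1 := rfl

theorem toSL_inj (hF : Fintype.card F = 4) (hg : Good ω) : Function.Injective (toSL hF hg) := by
  intro a b h
  apply Subtype.ext
  apply Units.ext
  apply reI.injective
  exact congrArg Subtype.val h

theorem toSL_mem (hF : Fintype.card F = 4) (hg : Good ω) (g : ↥(threeJ3 F ω)) : toSL hF hg g ∈ SU 9 F 2 := by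
  intro u v
  show hermForm 9 F 2 (reI (g : GL F9 F).1 *ᵥ u) (reI (g : GL F9 F).1 *ᵥ v) = hermForm 9 F 2 u v
  have h := herm_of_closure J hg (g : GL F9 F) g.2 (u ∘ eI) (v ∘ eI)
  have key : ∀ (M : Matrix F9 F9 F) (t : Fin 9 → F), (reI M *ᵥ t) ∘ eI = M *ᵥ (t ∘ eI) := by
    intro M t
    funext z
    show ∑ i, (reI M) (eI z) i * t i = ∑ w, M z w * t (eI w)
    rw [← Equiv.sum_comp eI]
    refine Finset.sum_congr rfl fun w _ => ?_
    show M (eI.symm (eI z)) (eI.symm (eI w)) * t (eI w) = _
    rw [Equiv.symm_apply_apply, Equiv.symm_apply_apply]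
  have herm : ∀ a b : Fin 9 → F, hermForm 9 F 2 a b = hermF (a ∘ eI) (b ∘ eI) := by
    intro a b
    unfold hermForm hermF
    rw [← Equiv.sum_comp eI]
    rfl
  rw [herm, herm, key, key]
  exact h

/-- The map to the special unitary group. -/
noncomputable def toSU (hF : Fintype.card F = 4) (hg : Good ω) : ↥(threeJ3 F ω) →* ↥(SU 9 F 2) :=
  (toSL hF hg).codRestrict _ (toSL_mem hF hg)

theorem toSU_inj (hF : Fintype.card F = 4) (hg : Good ω) : Function.Injective (toSU hF hg) := fun a b h =>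
  toSL_inj hF hg (congrArg Subtype.val h)

end unitary

/-- **A triple cover of `J₃` in the special unitary group.** -/
theorem exists_in_SU : ∃ (F : Type) (_ : Field F) (_ : Fintype F), Fintype.card F = 4 ∧
    ∃ H : Subgroup (SU 9 F 2), Nat.card (Subgroup.center H) = 3 ∧ IsJ3 (H ⧸ Subgroup.center H) := by
  obtain ⟨F, i₁, i₂, ω, hF, hω⟩ := exists_model4
  have hg : Good ω := good_of_card hF hω
  refine ⟨F, i₁, i₂, hF, (toSU hF hg).range, ?_, ?_⟩
  · let e : ↥(threeJ3 F ω) ≃* (toSU hF hg).range := MonoidHom.ofInjective (toSU_inj hF hg)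
    rw [← Nat.card_congr (Subgroup.centerCongr e).toEquiv]
    exact card_center_three hF hg
  · let e : ↥(threeJ3 F ω) ≃* (toSU hF hg).range := MonoidHom.ofInjective (toSU_inj hF hg)
    have hmap : (Subgroup.center ↥(threeJ3 F ω)).map e.toMonoidHom = Subgroup.center (toSU hF hg).range := by
      ext x
      constructor
      · rintro ⟨c, hc, rfl⟩
        rw [Subgroup.mem_center_iff]
        intro y
        obtain ⟨y', rfl⟩ := e.surjective y
        show e y' * e c = e c * e y'
        rw [← map_mul, ← map_mul, Subgroup.mem_center_iff.1 hc y']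
      · intro hx
        refine ⟨e.symm x, ?_, by simp⟩
        rw [SetLike.mem_coe, Subgroup.mem_center_iff]
        intro y
        apply e.injective
        rw [map_mul, map_mul, MulEquiv.apply_symm_apply]
        exact Subgroup.mem_center_iff.1 hx (e y)
    let e' : J3 F ω ≃* ((toSU hF hg).range ⧸ Subgroup.center (toSU hF hg).range) :=
      QuotientGroup.congr _ _ e hmap
    haveI := simple_J3 hg
    refine ⟨e'.symm.isSimpleGroup, ?_⟩
    rw [← Nat.card_congr e'.toEquiv]
    exact card_J3 hg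

end Cfsg.Agent.Lib.KnownSimple.J3
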