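import Cfsg.Agent.Lib.KnownSimple.J3.InvDefs

/-!
# The Janko group: checks of the conjugates of an involution
-/

set_option autoImplicit false

namespace Cfsg.Agent.Lib.KnownSimple.J3

open Cfsg Cfsg.Spor Cfsg.Agent.Lib.Compute Cfsg.Agent.Lib.KnownSimple.PE Cfsg.Agent.Lib.KnownSimple.Leech
open Cfsg.Agent.Lib.KnownSimple Cfsg.Agent.Lib.KnownSimple.AutRigid
open Cfsg.Agent.Lib.KnownSimple.J3Data

set_option maxRecDepth 100000 in
theorem cCls6 : chunk clsChk 2907 6 = true := by decide +kernel
set_option maxRecDepth 100000 in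
theorem cCls7 : chunk clsChk 2907 7 = true := by decide +kernel
set_option maxRecDepth 100000 in
theorem cCls8 : chunk clsChk 2907 8 = true := by decide +kernel

end Cfsg.Agent.Lib.KnownSimple.J3
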