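import Cfsg.Agent.Lib.KnownSimple.J3.Main
import Cfsg.Agent.Lib.KS2.O79a

/-!
# The Janko group `J₃` is simple

A nontrivial normal subgroup has order divisible by `19`, since the prime powers dividing the order are not
congruent to `1` modulo `19`.  By the Frattini argument the quotient is then generated by `u`, which it kills.
-/

set_option autoImplicit false

namespace Cfsg.Agent.Lib.KnownSimple.J3

open Cfsg Cfsg.Spor Cfsg.Agent.Lib.Compute Cfsg.Agent.Lib.KnownSimple.PE Cfsg.Agent.Lib.KnownSimple.Leech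
open Cfsg.Agent.Lib.KnownSimple Cfsg.Agent.Lib.KnownSimple.AutRigid
open Cfsg.Agent.Lib.KnownSimple.J3Data

/-- Elements of order `p` are conjugate up to powers if `p` divides the order exactly once. -/
theorem conj_of_sq_not_dvd {K : Type*} [Group K] [Finite K] {p : ℕ} [hp : Fact p.Prime] (h : ¬ p ^ 2 ∣ Nat.card K)
    {x y : K} (hx : orderOf x = p) (hy : orderOf y = p) : ∃ g : K, ∃ j : ℕ, g * y * g⁻¹ = x ^ j := by
  classical
  have key : ∀ x : K, orderOf x = p → ∃ P : Sylow p K, (P : Subgroup K) = Subgroup.zpowers x := by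
    intro x hx
    have hZ : IsPGroup p (Subgroup.zpowers x) := by
      rw [IsPGroup.iff_card]
      exact ⟨1, by rw [Nat.card_zpowers, hx, pow_one]⟩
    obtain ⟨P, hP⟩ := hZ.exists_le_sylow
    refine ⟨P, (Subgroup.eq_of_le_of_card_ge hP ?_).symm⟩
    rw [Nat.card_zpowers, hx]
    obtain ⟨k, hk⟩ := IsPGroup.iff_card.1 P.isPGroup'
    have hd : Nat.card P ∣ Nat.card K := Subgroup.card_subgroup_dvd_card _
    rw [hk] at hd ⊢
    have hk1 : k ≤ 1 := by
      by_contra hc
      exact h ((pow_dvd_pow p (by omega)).trans hd)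
    calc p ^ k ≤ p ^ 1 := Nat.pow_le_pow_right hp.out.pos hk1
      _ = p := pow_one p
  obtain ⟨P₁, h₁⟩ := key x hx
  obtain ⟨P₂, h₂⟩ := key y hy
  obtain ⟨g, hg⟩ := MulAction.exists_smul_eq K P₂ P₁
  have hy2 : y ∈ (P₂ : Subgroup K) := by
    rw [h₂]
    exact Subgroup.mem_zpowers y
  have hmem : g * y * g⁻¹ ∈ (P₁ : Subgroup K) := by
    rw [← hg]
    exact Subgroup.smul_mem_pointwise_smul y (MulAut.conj g) _ hy2
  rw [h₁, ← mem_powers_iff_mem_zpowers] at hmem
  obtain ⟨j, hj⟩ := hmem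
  exact ⟨g, j, hj.symm⟩

theorem prime_list_J3 {r : ℕ} (hr : r.Prime) (h : r ∣ 50232960) : r = 2 ∨ r = 3 ∨ r = 5 ∨ r = 17 ∨ r = 19 := by
  have e : (50232960 : ℕ) = 2 ^ 7 * 3 ^ 5 * 5 * 17 * 19 := by norm_num
  rw [e] at h
  simp only [hr.dvd_mul] at h
  have pd : ∀ {c : ℕ}, c.Prime → r ∣ c → r = c := fun hc hd => (Nat.prime_dvd_prime_iff_eq hr hc).1 hd
  rcases h with (((h | h) | h) | h) | h
  · exact Or.inl (pd Nat.prime_two (hr.dvd_of_dvd_pow h))
  · exact Or.inr (Or.inl (pd Nat.prime_three (hr.dvd_of_dvd_pow h)))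
  · exact Or.inr (Or.inr (Or.inl (pd (by norm_num) h)))
  · exact Or.inr (Or.inr (Or.inr (Or.inl (pd (by norm_num) h))))
  · exact Or.inr (Or.inr (Or.inr (Or.inr (pd (by norm_num) h))))

theorem pow_mod_check : ∀ r ∈ [2, 3, 5, 17], ∀ j : Fin 27, 1 ≤ j.val → r ^ j.val ∣ 50232960 → r ^ j.val % 19 ≠ 1 := by
  decide +kernel

theorem card_G : Nat.card G = 50232960 := card_H

instance : Finite G := Nat.finite_of_card_ne_zero (by rw [card_G]; norm_num)

/-- **`J₃` is simple.** -/
theorem simple_G : IsSimpleGroup G := by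
  classical
  haveI : Fact (Nat.Prime 19) := ⟨by norm_num⟩
  have hcard := card_G
  haveI : Nontrivial G := Finite.one_lt_card_iff_nontrivial.1 (by omega)
  refine { eq_bot_or_eq_top_of_normal := fun N hNn => ?_ }
  by_cases hb : N = ⊥
  · exact Or.inl hb
  right
  have hd : Nat.card N ∣ 50232960 := hcard ▸ Subgroup.card_subgroup_dvd_card N
  have h19 : 19 ∣ Nat.card N := by
    by_contra hno
    have hne : Nat.card N ≠ 1 := fun h => hb (Subgroup.card_eq_one.mp h)
    obtain ⟨r, hr, hrN⟩ := Nat.exists_prime_and_dvd hne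
    haveI : Fact r.Prime := ⟨hr⟩
    have hr19 : r ≠ 19 := by
      rintro rfl
      exact hno hrN
    have hl : r ∈ [2, 3, 5, 17] := by
      rcases prime_list_J3 hr (hrN.trans hd) with h | h | h | h | h
      · simp [h]
      · simp [h]
      · simp [h]
      · simp [h]
      · exact absurd h hr19
    have hmod : ∀ j, 1 ≤ j → r ^ j ∣ Nat.card N → ¬ r ^ j ≡ 1 [MOD 19] := by
      intro j hj hdj hm
      have hdG : r ^ j ∣ 50232960 := hdj.trans hd
      have hj27 : j < 27 := by
        by_contra hc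
        have h1 : r ^ j ≤ 50232960 := Nat.le_of_dvd (by norm_num) hdG
        have h2 : 2 ^ j ≤ r ^ j := Nat.pow_le_pow_left hr.two_le j
        have h3 : 2 ^ 27 ≤ 2 ^ j := Nat.pow_le_pow_right (by norm_num) (by omega)
        have h4 : (2 : ℕ) ^ 27 = 134217728 := by norm_num
        omega
      exact pow_mod_check r hl ⟨j, hj27⟩ hj hdG hm
    obtain ⟨y, hyN, hry, hc⟩ := Cfsg.Agent.Lib.KS2.O79.exists_fixed_elt N (s := 19) (r := r) w orderOf_w hno hrN hmod
    obtain ⟨a, rfl⟩ := hN1 y (by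
      rw [pow_one, ← hc.eq]
      group)
    have h5 : orderOf (w ^ a) ∣ 19 := orderOf_w ▸ orderOf_pow_dvd a
    exact hr19 ((Nat.prime_dvd_prime_iff_eq hr (by norm_num)).1 (hry.trans h5))
  have hn19 : ¬ 19 ^ 2 ∣ Nat.card G := by
    rw [hcard]
    norm_num
  have hnN : ¬ 19 ^ 2 ∣ Nat.card N := fun h => hn19 (by rw [hcard]; exact h.trans hd)
  obtain ⟨y, hy⟩ := exists_prime_orderOf_dvd_card' (G := N) 19 h19
  have hwN : w ∈ N := by
    obtain ⟨g, j, e⟩ := conj_of_sq_not_dvd hn19 (x := (y : G)) (y := w) (by rw [Subgroup.orderOf_coe]; exact hy) orderOf_w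
    have h1 : (y : G) ^ j ∈ N := N.pow_mem y.2 j
    rw [← e] at h1
    have h2 := hNn.conj_mem _ h1 g⁻¹
    have h3 : g⁻¹ * (g * w * g⁻¹) * g⁻¹⁻¹ = w := by group
    rwa [h3] at h2
  let f := QuotientGroup.mk' N
  have hfw : f w = 1 := (QuotientGroup.eq_one_iff _).2 hwN
  have hpow : ∀ g : G, ∃ b : ℕ, f g = f u ^ b := by
    intro g
    let w' : N := ⟨w, hwN⟩
    let y' : N := ⟨g * w * g⁻¹, hNn.conj_mem w hwN g⟩
    have ho1 : orderOf w' = 19 := by
      rw [Subgroup.orderOf_mk]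
      exact orderOf_w
    have ho2 : orderOf y' = 19 := by
      rw [Subgroup.orderOf_mk]
      have : orderOf (g * w * g⁻¹) = orderOf w := by
        have h0 := orderOf_injective (MulAut.conj g).toMonoidHom (MulAut.conj g).injective w
        exact h0
      rw [this]
      exact orderOf_w
    obtain ⟨n, j, e⟩ := conj_of_sq_not_dvd hnN ho1 ho2
    have e' : (n : G) * (g * w * g⁻¹) * (n : G)⁻¹ = w ^ j := congrArg Subtype.val e
    have e2 : ((n : G) * g) * w * ((n : G) * g)⁻¹ = w ^ j := by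
      rw [← e']
      group
    obtain ⟨a, b, -, e3⟩ := hN _ j e2
    refine ⟨b, ?_⟩
    have hfn : f (n : G) = 1 := (QuotientGroup.eq_one_iff _).2 n.2
    have h4 := congrArg f e3
    rw [map_mul, hfn, one_mul, map_mul, map_pow, map_pow, hfw, one_pow, one_mul] at h4
    exact h4
  have hfu : f u = 1 := by
    obtain ⟨b, hb'⟩ := hpow x₁
    have hc : Commute (f x₁) (f u) := by
      rw [hb']
      exact (Commute.refl _).pow_left b
    have h1 := congrArg f conj_x₁u
    rw [map_mul, map_mul, map_inv, map_pow, hc.eq, mul_inv_cancel_right] at h1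
    have h9 : f u ^ 9 = 1 := by rw [← map_pow, u_pow, map_one]
    have h7 : f u ^ 7 = 1 := by
      have h2 : f u ^ 8 = f u ^ 7 * f u := pow_succ _ 7
      rw [h2] at h1
      exact (mul_eq_right.1 h1.symm)
    calc f u = f u ^ 28 := by
          have : f u ^ 28 = (f u ^ 9) ^ 3 * f u := by
            rw [← pow_mul, ← pow_succ]
          rw [this, h9, one_pow, one_mul]
      _ = (f u ^ 7) ^ 4 := by rw [← pow_mul]
      _ = 1 := by rw [h7, one_pow]
  rw [eq_top_iff]
  intro g _
  obtain ⟨b, hb'⟩ := hpow g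
  rw [hfu, one_pow] at hb'
  exact (QuotientGroup.eq_one_iff _).1 hb'

end Cfsg.Agent.Lib.KnownSimple.J3
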